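import Mathlib

/-!
# Groups in which the subgroups of a cyclic subgroup of even order have one normalizer: local calculus
-/

set_option autoImplicit false
set_option linter.unusedSectionVars false
set_option linter.unusedVariables false

namespace Cfsg.Agent.Lib.IIG

open Subgroup

universe u

/-- The hypothesis: all nontrivial subgroups of a cyclic subgroup of even order have the same
normalizer. -/
def II (G : Type u) [Group G] : Prop :=
  ∀ X : Subgroup G, IsCyclic ↥X → Even (Nat.card ↥X) → ∀ Y : Subgroup G, Y ≤ X → Y ≠ ⊥ →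
    Subgroup.normalizer (X : Set G) = Subgroup.normalizer (Y : Set G)

variable {G : Type u} [Group G]

theorem mem_cent {t g : G} : g ∈ centralizer ({t} : Set G) ↔ g * t = t * g :=
  Subgroup.mem_centralizer_singleton_iff

theorem sq_eq_one_of_order {t : G} (ht : orderOf t = 2) : t * t = 1 := by
  have := pow_orderOf_eq_one t
  rw [ht, pow_two] at this
  exact this

theorem inv_eq_self_of_order {t : G} (ht : orderOf t = 2) : t⁻¹ = t :=
  inv_eq_of_mul_eq_one_left (sq_eq_one_of_order ht)

theorem order_two_of {t : G} (h : t * t = 1) (h1 : t ≠ 1) : orderOf t = 2 :=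
  orderOf_eq_prime (by rw [pow_two]; exact h) h1

theorem order_conj (g x : G) : orderOf (g * x * g⁻¹) = orderOf x :=
  MulEquiv.orderOf_eq (MulAut.conj g) x

theorem ne_one_of_order_two {t : G} (ht : orderOf t = 2) : t ≠ 1 := by
  rintro rfl
  simp at ht

theorem mem_zpowers_invol {t y : G} (ht : orderOf t = 2) (hy : y ∈ zpowers t) : y = 1 ∨ y = t := by
  obtain ⟨k, rfl⟩ := hy
  have h2 : t ^ (2 : ℤ) = 1 := by
    have := pow_orderOf_eq_one t
    rw [ht] at this
    exact_mod_cast this
  rcases Int.even_or_odd k with ⟨m, rfl⟩ | ⟨m, rfl⟩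
  · left
    show t ^ (m + m) = 1
    rw [← two_mul, zpow_mul, h2, one_zpow]
  · right
    show t ^ (2 * m + 1) = t
    rw [zpow_add_one, zpow_mul, h2, one_zpow, one_mul]

section finite

variable [Finite G]

/-- Normalizer of a cyclic subgroup, elementwise. -/
theorem mem_norm_zpowers {g w : G} :
    g ∈ normalizer ((zpowers w : Subgroup G) : Set G) ↔ g * w * g⁻¹ ∈ zpowers w := by
  constructor
  · intro h
    exact (Subgroup.mem_normalizer_iff.mp h w).mp (mem_zpowers w)
  · intro h
    have hle : (zpowers w).map (MulAut.conj g).toMonoidHom ≤ zpowers w := by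
      rw [MonoidHom.map_zpowers]
      exact (zpowers_le).mpr h
    have hcard : Nat.card ((zpowers w).map (MulAut.conj g).toMonoidHom : Subgroup G) =
        Nat.card (zpowers w) :=
      Subgroup.card_map_of_injective (MulAut.conj g).injective
    have heq : (zpowers w).map (MulAut.conj g).toMonoidHom = zpowers w :=
      Subgroup.eq_of_le_of_card_ge hle hcard.ge
    refine Subgroup.mem_normalizer_iff.mpr fun x => ⟨fun hx => ?_, fun hx => ?_⟩
    · rw [← heq]
      exact ⟨x, hx, rfl⟩
    · rw [← heq] at hx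
      obtain ⟨y, hy, hyx⟩ := hx
      have : y = x := (MulAut.conj g).injective hyx
      rwa [← this]

theorem normalizer_zpowers_invol {t : G} (ht : orderOf t = 2) :
    normalizer ((zpowers t : Subgroup G) : Set G) = centralizer ({t} : Set G) := by
  ext g
  rw [mem_norm_zpowers, mem_cent]
  constructor
  · intro h
    rcases mem_zpowers_invol ht h with h1 | h1
    · exfalso
      have h2 : g * t * g⁻¹ * g = 1 * g := by rw [h1]
      have h3 : g * t = g := by simpa using h2
      exact ne_one_of_order_two ht (by simpa using h3)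
    · calc g * t = g * t * g⁻¹ * g := by group
        _ = t * g := by rw [h1]
  · intro h
    have : g * t * g⁻¹ = t := by rw [h]; group
    rw [this]
    exact mem_zpowers t

variable (hII : II G)
include hII

/-- `N⟨w⟩ = C(t)` when the involution `t` is a power of `w`. -/
theorem norm_of_mem {t w : G} (ht : orderOf t = 2) (htw : t ∈ zpowers w) :
    normalizer ((zpowers w : Subgroup G) : Set G) = centralizer ({t} : Set G) := by
  have hle : zpowers t ≤ zpowers w := (zpowers_le).mpr htw
  have heven : Even (Nat.card (zpowers w)) := by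
    have h1 := Subgroup.card_dvd_of_le hle
    rw [Nat.card_zpowers, ht] at h1
    exact even_iff_two_dvd.mpr (by simpa [Nat.card_zpowers] using h1)
  have hne : zpowers t ≠ ⊥ := by
    intro h
    exact ne_one_of_order_two ht (zpowers_eq_bot.mp h)
  rw [hII (zpowers w) inferInstance heven (zpowers t) hle hne, normalizer_zpowers_invol ht]

/-- `N⟨o⟩ = C(t)` for `o ≠ 1` of odd order commuting with the involution `t`. -/
theorem norm_of_odd {t o : G} (ht : orderOf t = 2) (ho : Odd (orderOf o)) (h1 : o ≠ 1)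
    (hc : o * t = t * o) :
    normalizer ((zpowers o : Subgroup G) : Set G) = centralizer ({t} : Set G) := by
  have hcomm : Commute o t := hc
  have hpow : ∀ n : ℕ, (o * t) ^ n = o ^ n * t ^ n := fun n => hcomm.mul_pow n
  have ht2 : t ^ 2 = 1 := by rw [← ht]; exact pow_orderOf_eq_one t
  have hto : t ∈ zpowers (o * t) := by
    refine ⟨(orderOf o : ℤ), ?_⟩
    show (o * t) ^ ((orderOf o : ℕ) : ℤ) = t
    rw [zpow_natCast, hpow, pow_orderOf_eq_one, one_mul]
    obtain ⟨m, hm⟩ := ho
    rw [hm, pow_succ, pow_mul, ht2, one_pow, one_mul]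
  have hoo : o ∈ zpowers (o * t) := by
    refine ⟨((orderOf o + 1 : ℕ) : ℤ), ?_⟩
    show (o * t) ^ (((orderOf o + 1 : ℕ)) : ℤ) = o
    rw [zpow_natCast, hpow, pow_succ o, pow_orderOf_eq_one, one_mul]
    obtain ⟨m, hm⟩ := ho
    have : orderOf o + 1 = 2 * (m + 1) := by omega
    rw [this, pow_mul, ht2, one_pow, mul_one]
  have hN := norm_of_mem hII ht hto
  have heven : Even (Nat.card (zpowers (o * t))) := by
    have h1 := Subgroup.card_dvd_of_le ((zpowers_le).mpr hto)
    rw [Nat.card_zpowers, ht] at h1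
    exact even_iff_two_dvd.mpr (by simpa [Nat.card_zpowers] using h1)
  have hne : zpowers o ≠ ⊥ := fun h => h1 (zpowers_eq_bot.mp h)
  rw [← hII (zpowers (o * t)) inferInstance heven (zpowers o) ((zpowers_le).mpr hoo) hne, hN]

/-- Conjugation version of `norm_of_mem`. -/
theorem conj_mem_of_mem {t w g : G} (ht : orderOf t = 2) (htw : t ∈ zpowers w)
    (hg : g * t = t * g) : g * w * g⁻¹ ∈ zpowers w := by
  rw [← mem_norm_zpowers, norm_of_mem hII ht htw, mem_cent]
  exact hg

theorem comm_of_conj_mem {t w g : G} (ht : orderOf t = 2) (htw : t ∈ zpowers w)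
    (hg : g * w * g⁻¹ ∈ zpowers w) : g * t = t * g := by
  rw [← mem_norm_zpowers, norm_of_mem hII ht htw, mem_cent] at hg
  exact hg

theorem conj_mem_of_odd {t o g : G} (ht : orderOf t = 2) (ho : Odd (orderOf o))
    (hc : o * t = t * o) (hg : g * t = t * g) : g * o * g⁻¹ ∈ zpowers o := by
  by_cases h1 : o = 1
  · subst h1
    simp
  rw [← mem_norm_zpowers, norm_of_odd hII ht ho h1 hc, mem_cent]
  exact hg

theorem comm_of_conj_odd {t o g : G} (ht : orderOf t = 2) (ho : Odd (orderOf o)) (h1 : o ≠ 1)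
    (hc : o * t = t * o) (hg : g * o * g⁻¹ ∈ zpowers o) : g * t = t * g := by
  rw [← mem_norm_zpowers, norm_of_odd hII ht ho h1 hc, mem_cent] at hg
  exact hg

/-- Two involutions commuting with one odd element have the same centralizer. -/
theorem cent_eq_of_odd {t t' o : G} (ht : orderOf t = 2) (ht' : orderOf t' = 2)
    (ho : Odd (orderOf o)) (h1 : o ≠ 1) (hc : o * t = t * o) (hc' : o * t' = t' * o) :
    centralizer ({t} : Set G) = centralizer ({t'} : Set G) := by
  rw [← norm_of_odd hII ht ho h1 hc, norm_of_odd hII ht' ho h1 hc']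

/-- If `a ^ 2 = v` is an involution and `g` commutes with `v`, then `g` fixes or inverts `a`. -/
theorem conj_root {v a g : G} (hv : orderOf v = 2) (ha : a * a = v) (hg : g * v = v * g) :
    g * a * g⁻¹ = a ∨ g * a * g⁻¹ = a⁻¹ := by
  have hva : v ∈ zpowers a := ⟨((2 : ℕ) : ℤ), by
    show a ^ ((2 : ℕ) : ℤ) = v
    rw [zpow_natCast, pow_two, ha]⟩
  have h1 := conj_mem_of_mem hII hv hva hg
  have h4 : a * a * a * a = 1 := by
    rw [ha, mul_assoc, ha]; exact sq_eq_one_of_order hv
  have hvc : (g * a * g⁻¹) * (g * a * g⁻¹) = v := by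
    have : (g * a * g⁻¹) * (g * a * g⁻¹) = g * (a * a) * g⁻¹ := by group
    rw [this, ha, hg]; group
  obtain ⟨k, hk⟩ := h1
  have hk' : a ^ k = g * a * g⁻¹ := hk
  have hinv : a⁻¹ = a * v := by
    rw [← ha]
    apply inv_eq_of_mul_eq_one_left
    rw [← h4]; group
  have ha4 : a ^ (4 : ℤ) = 1 := by
    have : a ^ (4 : ℤ) = a * a * a * a := by
      rw [show (4 : ℤ) = ((4 : ℕ) : ℤ) by norm_num, zpow_natCast]
      simp [pow_succ, mul_assoc]
    rw [this, h4]
  have hmod : a ^ k = a ^ (k % 4) := by
    conv_lhs => rw [← Int.mul_ediv_add_emod k 4, zpow_add, zpow_mul, ha4, one_zpow, one_mul]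
  have hr : k % 4 = 0 ∨ k % 4 = 1 ∨ k % 4 = 2 ∨ k % 4 = 3 := by omega
  have h1ne : a ^ k * a ^ k = v := by rw [hk', hvc]
  rcases hr with h | h | h | h
  · exfalso
    rw [hmod, h] at h1ne
    simp only [zpow_zero, mul_one] at h1ne
    exact ne_one_of_order_two hv h1ne.symm
  · left
    rw [← hk', hmod, h, zpow_one]
  · exfalso
    rw [hmod, h] at h1ne
    have : a ^ (2 : ℤ) = v := by
      rw [← ha]
      show a ^ ((2 : ℕ) : ℤ) = _
      rw [zpow_natCast, pow_two]
    rw [this, sq_eq_one_of_order hv] at h1ne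
    exact ne_one_of_order_two hv h1ne.symm
  · right
    rw [← hk', hmod, h]
    have : a ^ (3 : ℤ) = a * v := by
      rw [← ha]
      show a ^ ((3 : ℕ) : ℤ) = _
      rw [zpow_natCast]
      simp [pow_succ, mul_assoc]
    rw [this, hinv]

end finite

/-- Mutually normalizing elements with coprime orders commute. -/
theorem comm_of_coprime {a b : G} (h1 : a * b * a⁻¹ ∈ zpowers b) (h2 : b * a * b⁻¹ ∈ zpowers a)
    (hc : Nat.Coprime (orderOf a) (orderOf b)) : a * b = b * a := by
  set c := a * b * a⁻¹ * b⁻¹ with hcdef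
  have hb : c ∈ zpowers b := (zpowers b).mul_mem h1 ((zpowers b).inv_mem (mem_zpowers b))
  have ha : c ∈ zpowers a := by
    have : c = a * (b * a * b⁻¹)⁻¹ := by rw [hcdef]; group
    rw [this]
    exact (zpowers a).mul_mem (mem_zpowers a) ((zpowers a).inv_mem h2)
  have h3 : orderOf c ∣ orderOf a := orderOf_dvd_of_mem_zpowers ha
  have h4 : orderOf c ∣ orderOf b := orderOf_dvd_of_mem_zpowers hb
  have h5 : orderOf c = 1 := Nat.eq_one_of_dvd_coprimes hc h3 h4
  have h6 : c = 1 := orderOf_eq_one_iff.mp h5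
  have : a * b * a⁻¹ * b⁻¹ * b * a = b * a := by
    rw [← hcdef, h6, one_mul]
  simpa [mul_assoc] using this

/-- For an involution `s` normalizing `⟨y⟩`, the element `y * (s y s)` commutes with `s`. -/
theorem inv_aux {s y : G} (hs : s * s = 1) (h : s * y * s⁻¹ ∈ zpowers y) :
    (y * (s * y * s⁻¹)) * s = s * (y * (s * y * s⁻¹)) := by
  have hinv : s⁻¹ = s := inv_eq_of_mul_eq_one_left hs
  have hcomm : y * (s * y * s⁻¹) = (s * y * s⁻¹) * y := by
    obtain ⟨k, hk⟩ := h
    rw [← hk]
    exact (Commute.self_zpow y k).eq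
  rw [hinv] at hcomm ⊢
  have e1 : s * (y * (s * y * s)) = (s * y * s * y) * s := by group
  rw [e1, ← hcomm]

/-- An involution normalizing `⟨y⟩` with no fixed point on it inverts `y`. -/
theorem inverts_of_fpf {s y : G} (hs : s * s = 1) (h : s * y * s⁻¹ ∈ zpowers y)
    (hfp : ∀ n ∈ zpowers y, n * s = s * n → n = 1) : s * y * s⁻¹ = y⁻¹ := by
  have h1 := hfp _ ((zpowers y).mul_mem (mem_zpowers y) h) (inv_aux hs h)
  exact eq_inv_of_mul_eq_one_right h1

/-- An involution normalizing `⟨y⟩`, `y` of prime order, commutes with `y` or inverts it. -/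
theorem comm_or_inverts_prime {s y : G} {p : ℕ} (hp : p.Prime) (hy : orderOf y = p)
    (hs : s * s = 1) (h : s * y * s⁻¹ ∈ zpowers y) :
    y * s = s * y ∨ s * y * s⁻¹ = y⁻¹ := by
  by_cases hc : y * s = s * y
  · exact Or.inl hc
  right
  refine inverts_of_fpf hs h ?_
  intro n hn hns
  by_contra hn1
  apply hc
  have hy' : y ∈ zpowers n := by
    have hcard : Nat.card (zpowers y) = p := by rw [Nat.card_zpowers, hy]
    haveI hFact : Fact (Nat.card (zpowers y)).Prime := ⟨by rw [hcard]; exact hp⟩
    have hcopr : (zpowers n).subgroupOf (zpowers y) = ⊤ := by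
      have := Subgroup.eq_bot_or_eq_top_of_prime_card (G := zpowers y) (H := (zpowers n).subgroupOf (zpowers y))
      rcases this with h0 | h0
      · exfalso
        apply hn1
        have : (⟨n, hn⟩ : zpowers y) ∈ (zpowers n).subgroupOf (zpowers y) :=
          Subgroup.mem_subgroupOf.mpr (mem_zpowers n)
        rw [h0, Subgroup.mem_bot] at this
        exact congrArg Subtype.val this
      · exact h0
    have : (⟨y, mem_zpowers y⟩ : zpowers y) ∈ (zpowers n).subgroupOf (zpowers y) := by
      rw [hcopr]; trivial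
    exact Subgroup.mem_subgroupOf.mp this
  obtain ⟨k, hk⟩ := hy'
  have hns' : Commute n s := hns
  rw [← hk]
  exact (hns'.zpow_left k).eq

end Cfsg.Agent.Lib.IIG
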