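import Cfsg.Agent.Lib.Zass.Sharp3Odd

/-!
# Sharply 3-transitive groups of degree `p^f + 1`, `p` odd, with a central Sylow generator in `H`
-/

set_option autoImplicit false
set_option linter.unusedSectionVars false
set_option linter.unusedVariables false
set_option linter.style.haveILetI false

namespace Cfsg.Agent.Lib.IIG

open MulAction Cfsg.Agent.Lib.Zass.Root Cfsg.Agent.Lib.Zass.Root.RootData
open Cfsg.Agent.Lib.Zass.Sharp3 Cfsg.Agent.Lib.Zass.RootCoord Cfsg.Agent.Lib.Zass.RootFinal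
open Cfsg.Agent.Lib.Zass.Sharp3Odd

universe u v w

variable {G : Type u} {Ω : Type v} {A : Type w} [Group G] [MulAction G Ω] [AddCommGroup A]

/-- A field endomorphism fixing a generating set of elements is the identity. -/
theorem ringHom_eq_id_of_gen {K Γ : Type*} [Field K] [Group Γ] (χ : Γ →* Kˣ)
    (hgen : Subring.closure (Set.range fun γ => ((χ γ : Kˣ) : K)) = ⊤) (σ : K →+* K)
    (hσ : ∀ γ, σ (χ γ : K) = χ γ) (k : K) : σ k = k := by
  have hk : k ∈ Subring.closure (Set.range fun γ => ((χ γ : Kˣ) : K)) := by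
    rw [hgen]; trivial
  induction hk using Subring.closure_induction with
  | mem x hx =>
    obtain ⟨γ, rfl⟩ := hx
    exact hσ γ
  | zero => exact map_zero σ
  | one => exact map_one σ
  | add x y _ _ hx hy => rw [map_add, hx, hy]
  | neg x _ hx => rw [map_neg, hx]
  | mul x y _ _ hx hy => rw [map_mul, hx, hy]

/-- **Zassenhaus**: sharply 3-transitive of degree `p^f + 1`, `p` odd, when `H` has a central
element of `2`-power order generating a Sylow `2`-subgroup. -/
theorem main_comm [Finite G] [Fintype Ω] [DecidableEq Ω] (S : Sharp3 G Ω) (R : RootData G Ω A)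
    [Finite A] {p f : ℕ} (hp : p.Prime) (hp2 : p ≠ 2) (hf0 : f ≠ 0)
    (hexp : ∀ x : A, p • x = 0) (hcard : Nat.card A = p ^ f)
    (hg : ∃ g ∈ R.H, ∃ k m : ℕ, 0 < k ∧ orderOf g = 2 ^ k ∧ Nat.card A = 2 ^ k * m + 1 ∧ Odd m ∧
      ∀ x ∈ R.H, x * g = g * x) :
    ∃ (K : Type) (_ : Field K) (_ : Fintype K), Fintype.card K = p ^ f ∧
      Nonempty (G ≃* Matrix.ProjGenLinGroup (Fin 2) K) := by
  classical
  haveI : Fact p.Prime := ⟨hp⟩
  have hpodd : Odd p := hp.odd_of_ne_two hp2
  have hodd : ∀ x : A, x + x = 0 → x = 0 := by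
    intro x hx
    obtain ⟨k, hk⟩ := hpodd
    have h1 := hexp x
    rw [hk, add_nsmul, one_nsmul] at h1
    have h2 : (2 * k) • x = k • (x + x) := by rw [two_mul, add_nsmul, nsmul_add]
    rw [h2, hx, nsmul_zero, zero_add] at h1
    exact h1
  haveI : Nontrivial A := by
    rw [← Finite.one_lt_card_iff_nontrivial, hcard]
    exact Nat.one_lt_pow hf0 hp.one_lt
  obtain ⟨e, he⟩ := exists_ne (0 : A)
  obtain ⟨s, hs, hsp, hse⟩ := exists_special (R := R) S he hodd
  have hmu : ∀ x : A, x ≠ 0 → mu s R x * mu s R x = 1 := fun x hx => mu_sq S hs hsp he hse hx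
  obtain ⟨g₀, hg₀, k, m, hk, hord, hcardm, hm, hcentral⟩ := hg
  have hsign : sgn G Ω g₀ = -1 := sgn_eq_neg_one he hg₀ hk hord hcardm hm
  set N : Subgroup G := (sgn G Ω).ker ⊓ R.H with hN
  have hcN : Nat.card N * 2 = Nat.card R.H := card_even_H hg₀ hsign
  have hcH : Nat.card R.H + 1 = Nat.card A := card_H S he
  have hNH : N ≤ R.H := inf_le_right
  have hmem : ∀ x : A, x ≠ 0 → mu s R x * s ∈ N := by
    intro x hx
    refine Subgroup.mem_inf.mpr ⟨?_, mu_mem hs hx⟩
    obtain ⟨g, hg, rfl⟩ := H_trans (R := R) S he hx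
    rw [← mu_conj hs hg he, mu_self hs hsp he hse, MonoidHom.mem_ker, map_mul, map_mul, map_mul,
      map_inv]
    have h1 := Int.units_mul_self (sgn G Ω s)
    calc sgn G Ω g * sgn G Ω s * (sgn G Ω g)⁻¹ * sgn G Ω s
        = sgn G Ω g * (sgn G Ω g)⁻¹ * (sgn G Ω s * sgn G Ω s) := by
          rw [mul_comm (sgn G Ω g) (sgn G Ω s), mul_assoc (sgn G Ω s), mul_comm (sgn G Ω s)]
          simp
      _ = 1 := by rw [h1]; simp
  have hinv := inverts_of_card hs hsp hmu N hmem 2 (Or.inl rfl) (by omega)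
  -- `N` is abelian
  have hNcomm : ∀ a ∈ N, ∀ b ∈ N, a * b = b * a := by
    intro a ha b hb
    have h1 := hinv _ (N.mul_mem ha hb)
    have h2 : s * (a * b) * s = (s * a * s) * (s * b * s) := by
      have hss : s * s = 1 := hs.sq
      calc s * (a * b) * s = s * a * (s * s) * b * s := by rw [hss]; group
        _ = (s * a * s) * (s * b * s) := by group
    rw [h2, hinv a ha, hinv b hb] at h1
    have h3 : a⁻¹ * b⁻¹ = b⁻¹ * a⁻¹ := by rw [h1, mul_inv_rev]
    calc a * b = (b⁻¹ * a⁻¹)⁻¹ := by group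
      _ = (a⁻¹ * b⁻¹)⁻¹ := by rw [h3]
      _ = b * a := by group
  -- every element of `H` commutes with `N`
  have hcommN : ∀ h ∈ R.H, ∀ γ ∈ N, h * γ = γ * h := by
    intro h hh γ hγ
    rcases Int.units_eq_one_or (sgn G Ω h) with h1 | h1
    · exact hNcomm h (Subgroup.mem_inf.mpr ⟨h1, hh⟩) γ hγ
    · have h2 : h * g₀ ∈ N := by
        refine Subgroup.mem_inf.mpr ⟨?_, R.H.mul_mem hh hg₀⟩
        rw [MonoidHom.mem_ker, map_mul, h1, hsign]
        rfl
      have h3 := hNcomm _ h2 γ hγ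
      have h4 := hcentral γ (hNH hγ)
      -- `h g₀ γ = γ h g₀`
      have h5 : h * (g₀ * γ) = γ * h * g₀ := by rw [← mul_assoc, h3]; group
      rw [← h4] at h5
      have h6 : h * γ * g₀ = γ * h * g₀ := by rw [mul_assoc, h5]
      exact mul_right_cancel h6
  obtain ⟨K, iF, iFt, ε, χ, h1, hmul, hgen, hinj, hsx⟩ :=
    coords R hs hsp N hNH hinv he hse (Or.inl (by omega))
  have hKcard : Fintype.card K = p ^ f := by
    rw [← hcard, ← Nat.card_congr ε.toEquiv, Nat.card_eq_fintype_card]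
  -- every element of `H` acts as a scalar
  have hH : ∀ h ∈ R.H, ∃ a : K, a ≠ 0 ∧ ∀ k, R.ap h (ε k) = ε (a * k) := by
    intro h hh
    let F : K →+ K :=
      { toFun := fun k => ε.symm (R.ap h (ε k))
        map_zero' := by rw [map_zero, H_ap_zero hh, map_zero]
        map_add' := fun a b => by rw [map_add, H_add hh, map_add] }
    have hFdef : ∀ k, ε (F k) = R.ap h (ε k) := fun k => by
      show ε (ε.symm (R.ap h (ε k))) = _
      rw [AddEquiv.apply_symm_apply]
    have hFinj : Function.Injective F := by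
      intro a b hab
      apply ε.injective
      rw [← H_inv hh (ε a), ← H_inv hh (ε b), ← hFdef, ← hFdef, hab]
    have hF0 : ∀ (γ : N) l, F ((χ γ : K) * l) = (χ γ : K) * F l := by
      intro γ l
      apply ε.injective
      rw [hFdef, ← hmul, ← hmul, hFdef, ← H_mul hh (hNH γ.2), hcommN h hh γ γ.2,
        H_mul (hNH γ.2) hh]
    obtain ⟨σ, hσ⟩ := Cfsg.Agent.Lib.Zass.FieldOf.exists_semilinear χ hgen F hFinj (by
      intro γ
      exact ⟨γ, hF0 γ⟩)
    have hF1 : F 1 ≠ 0 := by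
      intro h0
      have : F 1 = F 0 := by rw [h0, map_zero]
      exact one_ne_zero (hFinj this)
    have hσ1 : ∀ k, σ k = k := by
      refine ringHom_eq_id_of_gen χ hgen σ ?_
      intro γ
      have h2 := hσ (χ γ : K) 1
      rw [hF0 γ 1] at h2
      exact (mul_right_cancel₀ hF1 h2).symm
    refine ⟨F 1, hF1, fun k => ?_⟩
    have h2 := hσ k 1
    rw [mul_one, hσ1] at h2
    rw [← hFdef, h2, mul_comm]
  refine ⟨K, iF, iFt, hKcard, pgl_of_scalar R ε hs hsx hH hcH⟩

end Cfsg.Agent.Lib.IIG
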