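import Cfsg.Agent.Lib.Classical.SL2.Tori

/-!
# The action of `PSL₂(F)` on the projective line, `F` finite of odd order
-/

set_option autoImplicit false
set_option linter.unusedSectionVars false
set_option linter.unusedVariables false
set_option linter.style.haveILetI false

namespace Cfsg.Agent.Lib.IIG

/-- The abstract properties of the action of `PSL₂` on the projective line. -/
structure PLData (P Y : Type*) [Group P] [MulAction P Y] (p q : ℕ) (K : Y → Subgroup P) : Prop where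
  card_Y : Nat.card Y = q + 1
  card_P : Nat.card P * 2 = q * ((q - 1) * (q + 1))
  fix_K : ∀ ω, ∀ x ∈ K ω, x • ω = ω
  free_K : ∀ ω ω', ω' ≠ ω → ∀ x ∈ K ω, x • ω' = ω' → x = 1
  card_K : ∀ ω, Nat.card (K ω) = q
  pgroup_K : ∀ ω, IsPGroup p (K ω)
  comm_K : ∀ ω, ∀ x ∈ K ω, ∀ y ∈ K ω, x * y = y * x
  fix3 : ∀ (x : P) (a b c : Y), a ≠ b → b ≠ c → a ≠ c → x • a = a → x • b = b → x • c = c → x = 1
  conj_K : ∀ (c : P) (ω : Y), ∀ x ∈ K ω, c * x * c⁻¹ ∈ K (c • ω)
  eq_K : ∀ R : Subgroup P, IsPGroup p R → Nat.card R = q → ∃ ω, R = K ω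

namespace PL

open Matrix OnePoint MulAction
open Cfsg.Agent.Lib.Classical.SL2.Moebius Cfsg.Agent.Lib.Classical.SL2.Dickson
open Cfsg.Agent.Lib.Classical.SL2.Tori Cfsg.Agent.Lib.Classical.SL2.Klein

local notation "PGL2" => ProjGenLinGroup (Fin 2)
local notation "PSL2" => ProjectiveSpecialLinearGroup (Fin 2)

variable {F : Type*} [Field F] [Fintype F] [DecidableEq F]

/-- The action. -/
@[reducible] noncomputable def act : MulAction (PSL2 F) (OnePoint F) :=
  MulAction.compHom (OnePoint F) (tP (F := F))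

attribute [local instance] act

lemma smul_def (x : PSL2 F) (ω : OnePoint F) : x • ω = tP x • ω := rfl

lemma gcd_two (hodd : Odd (Fintype.card F)) : Nat.gcd 2 (Fintype.card F - 1) = 2 := by
  apply Nat.gcd_eq_left
  obtain ⟨k, hk⟩ := hodd
  exact ⟨k, by omega⟩

lemma card_P (hodd : Odd (Fintype.card F)) : Nat.card (PSL2 F) * 2 =
    Fintype.card F * ((Fintype.card F - 1) * (Fintype.card F + 1)) := by
  have h1 := card_psl (F := F)
  rwa [gcd_two hodd] at h1

lemma card_stab (hodd : Odd (Fintype.card F)) (ω : OnePoint F) :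
    Nat.card (stabilizer (PSL2 F) ω) * 2 = Fintype.card F * (Fintype.card F - 1) := by
  have h1 := card_Bp_inf_Lp ω
  rw [gcd_two hodd] at h1
  have h2 : stabilizer (PSL2 F) ω = (Bp ω).comap tP := by
    ext y
    rfl
  rw [← h1, ← card_comap_eq, h2]

lemma pretrans (hodd : Odd (Fintype.card F)) (a b : OnePoint F) : ∃ x : PSL2 F, x • a = b := by
  have h1 := ncard_orbit_mul_card_stabilizer (A := PSL2 F) a
  have h2 := card_stab hodd a
  have h3 := card_P (F := F) hodd
  have hq : 1 < Fintype.card F := Fintype.one_lt_card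
  have h4 : (orbit (PSL2 F) a).ncard = Fintype.card F + 1 := by
    have hpos : 0 < Fintype.card F * (Fintype.card F - 1) :=
      Nat.mul_pos (by omega) (by omega)
    apply Nat.eq_of_mul_eq_mul_right hpos
    calc (orbit (PSL2 F) a).ncard * (Fintype.card F * (Fintype.card F - 1))
        = (orbit (PSL2 F) a).ncard * (Nat.card (stabilizer (PSL2 F) a) * 2) := by rw [h2]
      _ = ((orbit (PSL2 F) a).ncard * Nat.card (stabilizer (PSL2 F) a)) * 2 := by ring
      _ = Nat.card (PSL2 F) * 2 := by rw [h1]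
      _ = Fintype.card F * ((Fintype.card F - 1) * (Fintype.card F + 1)) := h3
      _ = (Fintype.card F + 1) * (Fintype.card F * (Fintype.card F - 1)) := by ring
  have h5 : orbit (PSL2 F) a = Set.univ := by
    apply Set.eq_of_subset_of_ncard_le (Set.subset_univ _) _ (Set.toFinite _)
    rw [Set.ncard_univ, card_onePoint, h4]
  have h6 : b ∈ orbit (PSL2 F) a := by rw [h5]; trivial
  obtain ⟨x, hx⟩ := h6
  exact ⟨x, hx⟩

/-- The unipotent subgroup at a point. -/
noncomputable def K (ω : OnePoint F) : Subgroup (PSL2 F) where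
  carrier := {x | x • ω = ω ∧ chiFun ω (tP x) = 1}
  one_mem' := by
    refine ⟨one_smul _ _, ?_⟩
    rw [map_one, chiFun_one]
  mul_mem' := by
    rintro x y ⟨h1, h2⟩ ⟨h3, h4⟩
    refine ⟨by rw [mul_smul, h3, h1], ?_⟩
    rw [map_mul, chiFun_mul ω _ _ h1 h3, h2, h4, one_mul]
  inv_mem' := by
    rintro x ⟨h1, h2⟩
    have h3 : x⁻¹ • ω = ω := inv_smul_eq_iff.mpr h1.symm
    refine ⟨h3, ?_⟩
    have := chiFun_mul ω (tP x⁻¹) (tP x) h3 h1
    rw [← map_mul, inv_mul_cancel, map_one, chiFun_one, h2, mul_one] at this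
    exact this.symm

lemma mem_K {ω : OnePoint F} {x : PSL2 F} : x ∈ K ω ↔ x • ω = ω ∧ chiFun ω (tP x) = 1 := Iff.rfl

lemma tP_eq_one {x : PSL2 F} (h : tP x = 1) : x = 1 :=
  tP_injective (by rw [h, map_one])

lemma free_K {ω ω' : OnePoint F} (hne : ω' ≠ ω) {x : PSL2 F} (hx : x ∈ K ω) (h : x • ω' = ω') :
    x = 1 := by
  rcases (chiFun_eq_one_iff ω (tP x) hx.1).mp hx.2 with h1 | h1
  · exact tP_eq_one h1
  · exact absurd (h1 ω' h) hne

lemma exists_ne_pt (ω : OnePoint F) : ∃ ω' : OnePoint F, ω' ≠ ω := by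
  by_cases h : ω = ∞
  · exact ⟨((0 : F) : OnePoint F), by rw [h]; exact OnePoint.coe_ne_infty 0⟩
  · exact ⟨∞, fun h' => h h'.symm⟩

lemma card_compl (ω : OnePoint F) : Nat.card {y : OnePoint F // y ≠ ω} = Fintype.card F := by
  classical
  haveI : Fintype (OnePoint F) := Fintype.ofFinite _
  rw [Nat.card_eq_fintype_card, Fintype.card_subtype_compl, Fintype.card_subtype_eq,
    ← Nat.card_eq_fintype_card, card_onePoint]
  omega

lemma card_K_le (ω : OnePoint F) : Nat.card (K ω) ≤ Fintype.card F := by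
  classical
  obtain ⟨ω', hω'⟩ := exists_ne_pt ω
  let f : K ω → {y : OnePoint F // y ≠ ω} := fun x => ⟨(x : PSL2 F) • ω', by
    intro h
    apply hω'
    have h1 : (x : PSL2 F) • ω = ω := x.2.1
    exact smul_left_cancel (x : PSL2 F) (h.trans h1.symm)⟩
  have hf : Function.Injective f := by
    intro x y hxy
    have h1 : (x : PSL2 F) • ω' = (y : PSL2 F) • ω' := congrArg Subtype.val hxy
    have h2 : ((y⁻¹ * x : K ω) : PSL2 F) • ω' = ω' := by
      rw [Subgroup.coe_mul, Subgroup.coe_inv, mul_smul, h1, inv_smul_smul]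
    have h3 := free_K hω' (y⁻¹ * x).2 h2
    have h4 : y⁻¹ * x = 1 := Subtype.ext h3
    exact (inv_mul_eq_one.mp h4).symm
  rw [← card_compl ω]
  exact Nat.card_le_card_of_injective f hf

lemma chi_pow {ω : OnePoint F} {x : PSL2 F} (h : x • ω = ω) (n : ℕ) :
    chiFun ω (tP (x ^ n)) = chiFun ω (tP x) ^ n := by
  induction n with
  | zero => rw [pow_zero, pow_zero, map_one, chiFun_one]
  | succ n ih =>
    have h1 : (x ^ n) • ω = ω := by
      clear ih
      induction n with
      | zero => simp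
      | succ m ih2 => rw [pow_succ, mul_smul, h]; exact ih2
    rw [pow_succ, map_mul, chiFun_mul ω _ _ h1 h, ih, pow_succ]

variable {p f : ℕ} [Fact p.Prime] [CharP F p]

lemma chi_eq_one {ω : OnePoint F} {x : PSL2 F} (h : x • ω = ω) {k : ℕ} (hk : x ^ p ^ k = 1) :
    chiFun ω (tP x) = 1 := by
  have h1 := chi_pow h (p ^ k)
  rw [hk, map_one, chiFun_one] at h1
  have h2 : (chiFun ω (tP x) - 1) ^ p ^ k = 0 := by
    rw [sub_pow_char_pow, ← h1, one_pow, sub_self]
  have h3 : chiFun ω (tP x) - 1 = 0 := pow_eq_zero_iff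
    (pow_ne_zero k (Fact.out : p.Prime).ne_zero) |>.mp h2
  exact sub_eq_zero.mp h3

lemma le_K {R : Subgroup (PSL2 F)} (hR : IsPGroup p R) {ω : OnePoint F}
    (hfix : ∀ x ∈ R, x • ω = ω) : R ≤ K ω := by
  intro x hx
  obtain ⟨k, hk⟩ := hR ⟨x, hx⟩
  have h1 : x ^ p ^ k = 1 := congrArg Subtype.val hk
  exact ⟨hfix x hx, chi_eq_one (hfix x hx) h1⟩

lemma exists_fix (hF : Fintype.card F = p ^ f) (hf : f ≠ 0) {R : Subgroup (PSL2 F)}
    (hR : IsPGroup p R) : ∃ ω : OnePoint F, ∀ x ∈ R, x • ω = ω := by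
  have hnd : ¬ p ∣ Nat.card (OnePoint F) := by
    rw [card_onePoint, hF]
    intro h
    have h1 : p ∣ p ^ f := dvd_pow_self p hf
    have h2 := (Nat.dvd_add_right h1).mp h
    exact (Fact.out : p.Prime).one_lt.ne' (Nat.dvd_one.mp h2)
  obtain ⟨ω, hω⟩ := hR.nonempty_fixed_point_of_prime_not_dvd_card (OnePoint F) hnd
  refine ⟨ω, fun x hx => ?_⟩
  exact (mem_fixedPoints.mp hω) ⟨x, hx⟩

lemma eq_K (hF : Fintype.card F = p ^ f) (hf : f ≠ 0) (R : Subgroup (PSL2 F)) (hR : IsPGroup p R)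
    (hc : Nat.card R = Fintype.card F) : ∃ ω, R = K ω := by
  obtain ⟨ω, hω⟩ := exists_fix hF hf hR
  refine ⟨ω, Subgroup.eq_of_le_of_card_ge (le_K hR hω) ?_⟩
  rw [hc]
  exact card_K_le ω

lemma odd_p (hF : Fintype.card F = p ^ f) (hf : f ≠ 0) (hodd : Odd (Fintype.card F)) : Odd p := by
  rw [hF] at hodd
  rcases Nat.even_or_odd p with h | h
  · exact absurd hodd (Nat.not_odd_iff_even.mpr (h.pow_of_ne_zero hf))
  · exact h

/-- The order of a `p`-subgroup of maximal size is `q`. -/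
lemma card_sylow (hF : Fintype.card F = p ^ f) (hf : f ≠ 0) (hodd : Odd (Fintype.card F))
    (Q : Sylow p (PSL2 F)) : Nat.card Q = Fintype.card F := by
  have hpr : p.Prime := Fact.out
  have h1 := card_P (F := F) hodd
  have hq1 : 1 < Fintype.card F := Fintype.one_lt_card
  have hpo := odd_p hF hf hodd
  have hcop : Nat.Coprime p ((Fintype.card F - 1) * (Fintype.card F + 1)) := by
    apply Nat.Coprime.mul_right
    · rw [hpr.coprime_iff_not_dvd]
      intro h
      have h2 : p ∣ Fintype.card F := by rw [hF]; exact dvd_pow_self p hf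
      have h3 := Nat.dvd_sub h2 h
      have h4 : Fintype.card F - (Fintype.card F - 1) = 1 := by omega
      rw [h4] at h3
      exact hpr.one_lt.ne' (Nat.dvd_one.mp h3)
    · rw [hpr.coprime_iff_not_dvd]
      intro h
      have h2 : p ∣ Fintype.card F := by rw [hF]; exact dvd_pow_self p hf
      have h3 := (Nat.dvd_add_right h2).mp h
      exact hpr.one_lt.ne' (Nat.dvd_one.mp h3)
  obtain ⟨a, ha⟩ := IsPGroup.iff_card.mp Q.isPGroup'
  have hidx := (Q : Subgroup (PSL2 F)).card_mul_index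
  have hnd : ¬ p ∣ (Q : Subgroup (PSL2 F)).index := Q.not_dvd_index
  have h2 : p ^ a * ((Q : Subgroup (PSL2 F)).index * 2) =
      p ^ f * ((Fintype.card F - 1) * (Fintype.card F + 1)) := by
    rw [← hF, ← h1, ← hidx, ha]
    ring
  have hcop2 : Nat.Coprime p ((Q : Subgroup (PSL2 F)).index * 2) := by
    apply Nat.Coprime.mul_right
    · exact (hpr.coprime_iff_not_dvd).mpr hnd
    · rw [hpr.coprime_iff_not_dvd]
      intro h
      have := (Nat.prime_dvd_prime_iff_eq hpr Nat.prime_two).mp h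
      rw [this] at hpo
      exact absurd hpo (by decide)
  have h3 : p ^ a ∣ p ^ f := by
    have : p ^ a ∣ p ^ f * ((Fintype.card F - 1) * (Fintype.card F + 1)) := ⟨_, h2.symm⟩
    exact (Nat.Coprime.pow_left a hcop).dvd_of_dvd_mul_right this
  have h4 : p ^ f ∣ p ^ a := by
    have : p ^ f ∣ p ^ a * ((Q : Subgroup (PSL2 F)).index * 2) := ⟨_, h2⟩
    exact (Nat.Coprime.pow_left f hcop2).dvd_of_dvd_mul_right this
  rw [ha, hF]
  exact Nat.dvd_antisymm h3 h4

lemma K_is_sylow (hF : Fintype.card F = p ^ f) (hf : f ≠ 0) (hodd : Odd (Fintype.card F))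
    (ω : OnePoint F) : IsPGroup p (K ω) ∧ Nat.card (K ω) = Fintype.card F := by
  obtain ⟨Q⟩ : Nonempty (Sylow p (PSL2 F)) := inferInstance
  obtain ⟨ω₀, hω₀⟩ := exists_fix hF hf Q.isPGroup'
  obtain ⟨c, hc⟩ := pretrans hodd ω₀ ω
  have hfix : ∀ x ∈ ((MulAut.conj c • Q : Sylow p (PSL2 F)) : Subgroup (PSL2 F)), x • ω = ω := by
    intro x hx
    open scoped Pointwise in
    have hx' : x ∈ (MulAut.conj c • (Q : Subgroup (PSL2 F))) := hx
    obtain ⟨y, hy, rfl⟩ := hx'
    rw [← hc]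
    have h1 := hω₀ y hy
    show (c * y * c⁻¹) • (c • ω₀) = c • ω₀
    rw [mul_smul, mul_smul, inv_smul_smul, h1]
  have hc1 := card_sylow hF hf hodd (MulAut.conj c • Q)
  have hle := le_K (MulAut.conj c • Q).isPGroup' hfix
  have heq : ((MulAut.conj c • Q : Sylow p (PSL2 F)) : Subgroup (PSL2 F)) = K ω :=
    Subgroup.eq_of_le_of_card_ge hle (by rw [hc1]; exact card_K_le ω)
  rw [← heq]
  exact ⟨(MulAut.conj c • Q).isPGroup', hc1⟩

lemma conj_K (hF : Fintype.card F = p ^ f) (hf : f ≠ 0) (hodd : Odd (Fintype.card F))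
    (c : PSL2 F) (ω : OnePoint F) {x : PSL2 F} (hx : x ∈ K ω) : c * x * c⁻¹ ∈ K (c • ω) := by
  obtain ⟨h1, h2⟩ := K_is_sylow (p := p) hF hf hodd ω
  have h3 : c * x * c⁻¹ ∈ (K ω).map (MulAut.conj c).toMonoidHom := ⟨x, hx, rfl⟩
  refine (?_ : (K ω).map (MulAut.conj c).toMonoidHom ≤ K (c • ω)) h3
  apply le_K
  · exact h1.map _
  · rintro _ ⟨y, hy, rfl⟩
    show (c * y * c⁻¹) • (c • ω) = c • ω
    rw [mul_smul, mul_smul, inv_smul_smul, hy.1]

lemma comm_K (ω : OnePoint F) {x y : PSL2 F} (hx : x ∈ K ω) (hy : y ∈ K ω) : x * y = y * x := by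
  apply tP_injective
  rw [map_mul, map_mul]
  obtain ⟨g, hg⟩ := ProjGenLinGroup.mk_surjective (tP x)
  obtain ⟨h, hh⟩ := ProjGenLinGroup.mk_surjective (tP y)
  have hgω : ProjGenLinGroup.mk g • ω = ω := by rw [hg]; exact hx.1
  have hhω : ProjGenLinGroup.mk h • ω = ω := by rw [hh]; exact hy.1
  have h1 := hx.2
  have h2 := hy.2
  rw [← hg, chiFun_mk] at h1
  rw [← hh, chiFun_mk] at h2
  have hM := conj_fix_infty (pt_smul ω) hgω
  have hN := conj_fix_infty (pt_smul ω) hhω
  set M := (pt ω)⁻¹ * g * pt ω with hMdef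
  set N := (pt ω)⁻¹ * h * pt ω with hNdef
  have hM0 : M 0 0 = M 1 1 := by
    unfold ratio at h1
    rwa [div_eq_one_iff_eq (diag_ne_zero hM).2] at h1
  have hN0 : N 0 0 = N 1 1 := by
    unfold ratio at h2
    rwa [div_eq_one_iff_eq (diag_ne_zero hN).2] at h2
  have hcomm : M * N = N * M := by
    apply gl_ext
    · simp only [gl_mul_apply, hM, hN]; ring
    · simp only [gl_mul_apply, hM, hN, hM0, hN0]; ring
    · simp only [gl_mul_apply, hM, hN]; ring
    · simp only [gl_mul_apply, hM, hN]; ring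
  have hgh : g * h = h * g := by
    have e1 : M * N = (pt ω)⁻¹ * (g * h) * pt ω := by rw [hMdef, hNdef]; group
    have e2 : N * M = (pt ω)⁻¹ * (h * g) * pt ω := by rw [hMdef, hNdef]; group
    rw [e1, e2] at hcomm
    have h3 := mul_right_cancel hcomm
    exact mul_left_cancel h3
  rw [← hg, ← hh, ← map_mul, ← map_mul, hgh]

/-- The data. -/
theorem data (hF : Fintype.card F = p ^ f) (hf : f ≠ 0) (hodd : Odd (Fintype.card F)) :
    PLData (PSL2 F) (OnePoint F) p (Fintype.card F) K where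
  card_Y := card_onePoint
  card_P := card_P hodd
  fix_K := fun ω x hx => hx.1
  free_K := fun ω ω' hne x hx h => free_K hne hx h
  card_K := fun ω => (K_is_sylow (p := p) hF hf hodd ω).2
  pgroup_K := fun ω => (K_is_sylow (p := p) hF hf hodd ω).1
  comm_K := fun ω x hx y hy => comm_K ω hx hy
  fix3 := by
    intro x a b c hab hbc hac ha hb hc
    by_contra hx
    have h1 : tP x ≠ 1 := fun h => hx (tP_eq_one h)
    rcases fix_three' (tP x) a b c h1 ha hb hc with h | h | h
    · exact hab h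
    · exact hac h
    · exact hbc h
  conj_K := fun c ω x hx => conj_K hF hf hodd c ω hx
  eq_K := fun R hR hc => eq_K hF hf R hR hc

end PL

end Cfsg.Agent.Lib.IIG
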